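import Cfsg.Agent.H875.L64.Table

/-!
# S5915, R3c: the multiplicities are additive (helper875)
-/

set_option autoImplicit false

namespace Cfsg.Agent.H875.L64

open Matrix Cfsg.Agent.H943.SL2Rel Cfsg.Agent.H943.RepAdd Cfsg.Agent.H943.SL2Mod Cfsg.Agent.H939.L64

variable {k : Type} [Field k] [CharP k 2] {F : Type} [Field F] [Fintype F] [DecidableEq F] {ι : F →+* k}
  {lam : Fˣ} {y : SpecialLinearGroup (Fin 2) F} {ζ : k}

omit [CharP k 2] in
theorem lam_pow (D : Dat ι lam y ζ) : h lam ^ 63 = 1 := by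
  rw [← h_pow, ← h_one]
  congr 1
  have h1 : Fintype.card Fˣ = 63 := by rw [Fintype.card_units, D.card]
  rw [← h1, pow_card_eq_one]

omit [CharP k 2] [DecidableEq F] in
theorem y_pow (D : Dat ι lam y ζ) : y ^ 65 = 1 := by
  have hζ0 : ζ ≠ 0 := D.prim.ne_zero (by norm_num)
  have hne : ζ ≠ ζ⁻¹ := by
    intro e
    have h1 : ζ ^ 2 = 1 := by
      rw [pow_two]
      nth_rw 2 [e]
      exact mul_inv_cancel₀ hζ0
    have h2 := D.prim.dvd_of_pow_eq_one 2 h1
    norm_num at h2
  -- the polynomial identity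
  have h1 : (Polynomial.X - Polynomial.C ζ) * (Polynomial.X - Polynomial.C ζ⁻¹) ∣
      (Polynomial.X ^ 65 - 1 : Polynomial k) := by
    refine IsCoprime.mul_dvd (Polynomial.isCoprime_X_sub_C_of_isUnit_sub (sub_ne_zero.2 hne).isUnit) ?_ ?_
    · rw [Polynomial.dvd_iff_isRoot]
      simp [Polynomial.IsRoot, D.prim.pow_eq_one]
    · rw [Polynomial.dvd_iff_isRoot]
      simp [Polynomial.IsRoot, D.prim.pow_eq_one]
  obtain ⟨Q, hQ⟩ := h1
  set Y : Matrix (Fin 2) (Fin 2) k := y.1.map ι with hY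
  have hdet : Y 0 0 * Y 1 1 - Y 0 1 * Y 1 0 = 1 := by
    have h2 := y.2
    rw [Matrix.det_fin_two] at h2
    have h3 := congrArg ι h2
    rw [map_sub, map_mul, map_mul, map_one] at h3
    exact h3
  have htr : Y 0 0 + Y 1 1 = ζ + ζ⁻¹ := by
    rw [← D.tr, map_add]
    rfl
  have h2 : Polynomial.aeval Y ((Polynomial.X - Polynomial.C ζ) * (Polynomial.X - Polynomial.C ζ⁻¹)) = 0 := by
    have e : ((Polynomial.X - Polynomial.C ζ) * (Polynomial.X - Polynomial.C ζ⁻¹) : Polynomial k) =
        Polynomial.X ^ 2 - Polynomial.C (ζ + ζ⁻¹) * Polynomial.X + Polynomial.C (ζ * ζ⁻¹) := by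
      rw [Polynomial.C_add, Polynomial.C_mul]
      ring
    rw [e, mul_inv_cancel₀ hζ0, ← htr]
    simp only [map_add, map_sub, map_mul, map_pow, Polynomial.aeval_X, Polynomial.aeval_C, map_one]
    rw [Algebra.algebraMap_eq_smul_one, Algebra.algebraMap_eq_smul_one]
    ext i j
    fin_cases i <;> fin_cases j <;>
      simp [pow_two, Matrix.mul_apply, Fin.sum_univ_two, Matrix.smul_apply, Matrix.add_mul]
    · linear_combination -hdet
    · ring
    · ring
    · linear_combination -hdet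
  have h3 : Y ^ 65 = 1 := by
    have h4 := congrArg (Polynomial.aeval Y) hQ
    rw [map_mul, h2, zero_mul, map_sub, map_pow, Polynomial.aeval_X, map_one] at h4
    exact sub_eq_zero.1 h4
  have h4 : (Matrix.SpecialLinearGroup.map ι y) ^ 65 = 1 := by
    apply Subtype.ext
    rw [Matrix.SpecialLinearGroup.coe_pow]
    exact h3
  rw [← map_pow, ← map_one (Matrix.SpecialLinearGroup.map ι)] at h4
  apply Subtype.ext
  ext i j
  have h7 := congrFun (congrFun (congrArg Subtype.val h4) i) j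
  exact ι.injective h7

/-- the spectra are additive -/
theorem spec_add (D : Dat ι lam y ζ) {V : Type} [AddCommGroup V] [Module k V] [FiniteDimensional k V]
    (ρ : Representation k (SpecialLinearGroup (Fin 2) F) V) (W : Submodule k V) (hW : ∀ g, ∀ x ∈ W, ρ g x ∈ W)
    (j : ℕ) : e65 ρ y ζ j = e65 (subRep ρ W hW) y ζ j + e65 (quotRep ρ W hW) y ζ j ∧
      e63 ι ρ lam j = e63 ι (subRep ρ W hW) lam j + e63 ι (quotRep ρ W hW) lam j := by
  have h20 : (2 : k) = 0 := CharTwo.two_eq_zero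
  have h65 : ((65 : ℕ) : k) ≠ 0 := by
    have e : ((65 : ℕ) : k) = 2 * 32 + 1 := by push_cast; ring
    rw [e, h20, zero_mul, zero_add]
    exact one_ne_zero
  have h63 : ((63 : ℕ) : k) ≠ 0 := by
    have e : ((63 : ℕ) : k) = 2 * 31 + 1 := by push_cast; ring
    rw [e, h20, zero_mul, zero_add]
    exact one_ne_zero
  have hζ0 : ζ ≠ 0 := D.prim.ne_zero (by norm_num)
  have hl0 : ι lam ≠ 0 := (map_ne_zero ι).2 lam.ne_zero
  have hl63 : ι lam ^ 63 = 1 := by
    have h3 : lam ^ 63 = 1 := by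
      have h1 : Fintype.card Fˣ = 63 := by rw [Fintype.card_units, D.card]
      rw [← h1, pow_card_eq_one]
    rw [← map_pow, ← Units.val_pow_eq_pow_val, h3, Units.val_one, map_one]
  constructor
  · exact finrank_eig ρ W hW (n := 65) (by rw [← map_pow, y_pow D, map_one]) h65
      (by rw [← pow_mul, mul_comm, pow_mul, D.prim.pow_eq_one, one_pow]) (pow_ne_zero _ hζ0)
  · exact finrank_eig ρ W hW (n := 63) (by rw [← map_pow, lam_pow D, map_one]) h63
      (by rw [← pow_mul, mul_comm, pow_mul, hl63, one_pow]) (pow_ne_zero _ hl0)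

/-- **R3c** : the multiplicities are additive -/
theorem R3c (D : Dat ι lam y ζ) {V : Type} [AddCommGroup V] [Module k V] [FiniteDimensional k V]
    (ρ : Representation k (SpecialLinearGroup (Fin 2) F) V) (W : Submodule k V) (hW : ∀ g, ∀ x ∈ W, ρ g x ∈ W)
    {m m1 m2 : ℕ → ℕ} (h : SpecM ι ρ lam y ζ m) (h1 : SpecM ι (subRep ρ W hW) lam y ζ m1)
    (h2 : SpecM ι (quotRep ρ W hW) lam y ζ m2) : ∀ b < 64, m b = m1 b + m2 b := by
  have key := R3b (fun b => (m b : ℤ)) (fun b => (m1 b : ℤ) + (m2 b : ℤ)) (fun j hj => ?_) (fun j hj => ?_)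
  · intro b hb
    have := key b hb
    exact_mod_cast this
  · have e := (spec_add D ρ W hW j).1
    rw [h.1 j hj, h1.1 j hj, h2.1 j hj] at e
    have e' := congrArg (fun n : ℕ => (n : ℤ)) e
    push_cast at e'
    simp only [add_mul, Finset.sum_add_distrib]
    exact e'
  · have e := (spec_add D ρ W hW j).2
    rw [h.2 j hj, h1.2 j hj, h2.2 j hj] at e
    have e' := congrArg (fun n : ℕ => (n : ℤ)) e
    push_cast at e'
    simp only [add_mul, Finset.sum_add_distrib]
    exact e'

omit [CharP k 2] [Fintype F] [DecidableEq F] in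
/-- uniqueness of the multiplicities -/
theorem specM_unique {V : Type} [AddCommGroup V] [Module k V]
    {ρ : Representation k (SpecialLinearGroup (Fin 2) F) V} {m m' : ℕ → ℕ} (h : SpecM ι ρ lam y ζ m)
    (h' : SpecM ι ρ lam y ζ m') : ∀ b < 64, m b = m' b := by
  have key := R3b (fun b => (m b : ℤ)) (fun b => (m' b : ℤ)) (fun j hj => ?_) (fun j hj => ?_)
  · intro b hb
    have := key b hb
    exact_mod_cast this
  · have e := (h.1 j hj).symm.trans (h'.1 j hj)
    exact_mod_cast e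
  · have e := (h.2 j hj).symm.trans (h'.2 j hj)
    exact_mod_cast e

end Cfsg.Agent.H875.L64
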